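import Cfsg.Agent.H510.UCert

/-!
# Certificate for `PSU(12, 11)` (helper510; generated)
-/

set_option autoImplicit false

namespace Cfsg.Agent.H510.U

open Cfsg.Agent.H510.UCert

def U12_11 : UD where
  n := 12
  q := 11
  p := 11
  a := 1
  fac := [
    (2, 34), (3, 17), (5, 7), (7, 2), (13, 1), (19, 2), (23, 1), (37, 4), (61, 3), (89, 1), (199, 1), (1117, 1),
    (3221, 1), (7321, 1), (13421, 2), (58367, 1), (590077, 1), (1623931, 1)]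
  tops := [
    (7, 1623931), (8, 7321), (9, 590077), (10, 3221), (11, 23)]
  A := [
    (61, 31), (1117, 31), (3221, 179), (7321, 523), (13421, 2237), (58367, 379), (590077, 443), (1623931, 181)]
  B := [
    (2, ⟨3221, 29, 644, 28, [(2, 2, 2), (7, 1, 1)], 2, 0⟩, ⟨7321, 41, 1220, 20, [(2, 2, 2), (5, 1, 1)], 2, 0⟩),
    (3, ⟨3221, 29, 644, 28, [(2, 2, 2), (7, 1, 1)], 2, 0⟩, ⟨7321, 31, 1830, 30, [(2, 1, 1), (3, 1, 1), (5, 1,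
    1)], 1, 1⟩),
    (5, ⟨1623931, 31, 777, 3, [(3, 1, 1)], 0, 1⟩, ⟨23, 67, 22, 22, [(2, 1, 1), (11, 1, 1)], 1, 0⟩),
    (7, ⟨7321, 73, 7320, 24, [(2, 3, 3), (3, 1, 1)], 3, 1⟩, ⟨590077, 181, 196692, 12, [(2, 2, 2), (3, 1, 1)], 2,
    1⟩),
    (13, ⟨1623931, 43, 811965, 21, [(3, 1, 1), (7, 1, 1)], 0, 1⟩, ⟨23, 419, 11, 11, [(11, 1, 1)], 0, 0⟩),
    (19, ⟨7321, 181, 1220, 4, [(2, 2, 2)], 2, 0⟩, ⟨590077, 181, 65564, 4, [(2, 2, 2)], 2, 0⟩),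
    (23, ⟨3221, 29, 805, 7, [(7, 1, 1)], 0, 0⟩, ⟨1623931, 151, 1623930, 30, [(2, 1, 1), (3, 1, 1), (5, 1, 1)],
    1, 1⟩),
    (37, ⟨590077, 31, 98346, 6, [(2, 1, 1), (3, 1, 1)], 1, 1⟩, ⟨1623931, 67, 811965, 3, [(3, 1, 1)], 0, 1⟩),
    (89, ⟨1623931, 31, 541310, 10, [(2, 1, 1), (5, 1, 1)], 1, 0⟩, ⟨3221, 131, 35, 5, [(5, 1, 1)], 0, 0⟩),
    (199, ⟨1623931, 43, 541310, 14, [(2, 1, 1), (7, 1, 1)], 1, 0⟩, ⟨7321, 71, 305, 5, [(5, 1, 1)], 0, 0⟩)]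
  ch := [
    (7321, 7, [(2, 3), (3, 1), (5, 1), (61, 1)]),
    (13421, 10, [(2, 2), (5, 1), (11, 1), (61, 1)]),
    (58367, 7, [(2, 1), (7, 1), (11, 1), (379, 1)]),
    (590077, 6, [(2, 2), (3, 2), (37, 1), (443, 1)]),
    (1623931, 17, [(2, 1), (3, 1), (5, 1), (7, 1), (11, 1), (19, 1), (37, 1)])]

set_option maxRecDepth 100000 in
theorem U12_11_ok : ldU U12_11 = true := by decide +kernel

end Cfsg.Agent.H510.U
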