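import Cfsg.Agent.H510.UCert

/-!
# Certificate for `PSU(12, 5)` (helper510; generated)
-/

set_option autoImplicit false

namespace Cfsg.Agent.H510.U

open Cfsg.Agent.H510.UCert

def U12_5 : UD where
  n := 12
  q := 5
  p := 5
  a := 1
  fac := [
    (2, 28), (3, 17), (7, 4), (11, 1), (13, 3), (23, 1), (29, 1), (31, 2), (67, 1), (71, 1), (313, 1), (449, 1),
    (521, 2), (601, 1), (5167, 1), (5281, 1)]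
  tops := [
    (7, 449), (8, 313), (9, 5167), (10, 71), (11, 67), (12, 601)]
  A := [
    (67, 17), (313, 157), (601, 43), (5167, 17), (5281, 19)]
  B := [
    (2, ⟨71, 127, 35, 7, [(7, 1, 1)], 0, 0⟩, ⟨5167, 337, 861, 21, [(3, 1, 1), (7, 1, 1)], 0, 1⟩),
    (3, ⟨5167, 19, 738, 18, [(2, 1, 1), (3, 2, 2)], 1, 2⟩, ⟨67, 661, 22, 22, [(2, 1, 1), (11, 1, 1)], 1, 0⟩),
    (7, ⟨449, 17, 112, 16, [(2, 4, 4)], 4, 0⟩, ⟨5167, 43, 1722, 6, [(2, 1, 1), (3, 1, 1)], 1, 1⟩),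
    (11, ⟨313, 37, 78, 6, [(2, 1, 1), (3, 1, 1)], 1, 1⟩, ⟨67, 37, 66, 6, [(2, 1, 1), (3, 1, 1)], 1, 1⟩),
    (13, ⟨601, 17, 20, 4, [(2, 2, 2)], 2, 0⟩, ⟨5167, 19, 5166, 18, [(2, 1, 1), (3, 2, 2)], 1, 2⟩),
    (23, ⟨449, 17, 112, 16, [(2, 4, 4)], 4, 0⟩, ⟨5167, 19, 2583, 9, [(3, 2, 2)], 0, 2⟩),
    (29, ⟨313, 37, 12, 12, [(2, 2, 2), (3, 1, 1)], 2, 1⟩, ⟨5167, 83, 287, 41, [(41, 1, 1)], 0, 0⟩),
    (31, ⟨67, 19, 66, 6, [(2, 1, 1), (3, 1, 1)], 1, 1⟩, ⟨71, 41, 70, 10, [(2, 1, 1), (5, 1, 1)], 1, 0⟩),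
    (71, ⟨5167, 37, 369, 9, [(3, 2, 2)], 0, 2⟩, ⟨449, 193, 64, 64, [(2, 6, 6)], 6, 0⟩),
    (449, ⟨67, 97, 33, 3, [(3, 1, 1)], 0, 1⟩, ⟨5167, 127, 2583, 9, [(3, 2, 2)], 0, 2⟩),
    (521, ⟨449, 17, 112, 16, [(2, 4, 4)], 4, 0⟩, ⟨5167, 19, 1722, 6, [(2, 1, 1), (3, 1, 1)], 1, 1⟩)]
  ch := [
    (5167, 6, [(2, 1), (3, 2), (7, 1), (41, 1)]),
    (5281, 7, [(2, 5), (3, 1), (5, 1), (11, 1)])]

set_option maxRecDepth 100000 in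
theorem U12_5_ok : ldU U12_5 = true := by decide +kernel

end Cfsg.Agent.H510.U
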