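import Cfsg.Agent.H510.UCert

/-!
# Certificate for `PSU(14, 13)` (helper510; generated)
-/

set_option autoImplicit false

namespace Cfsg.Agent.H510.U

open Cfsg.Agent.H510.UCert

def U14_13 : UD where
  n := 14
  q := 13
  p := 13
  a := 1
  fac := [
    (2, 32), (3, 9), (5, 3), (7, 16), (11, 2), (17, 3), (19, 1), (29, 2), (61, 2), (157, 4), (271, 1), (937, 1),
    (2411, 2), (13417, 1), (14281, 1), (20333, 1), (22079, 2), (28393, 1), (30941, 1), (79301, 1), (5229043, 1),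
    (128011456717, 1)]
  tops := [
    (8, 14281), (9, 937), (10, 30941), (11, 128011456717), (13, 20333), (14, 5229043)]
  A := [
    (61, 31), (157, 79), (937, 67), (2411, 67), (13417, 43), (14281, 37), (20333, 23), (22079, 23), (28393,
    14197), (30941, 191), (79301, 13217), (5229043, 1307261), (128011456717, 64005728359)]
  B := [
    (2, ⟨14281, 41, 2380, 20, [(2, 2, 2), (5, 1, 1)], 2, 0⟩, ⟨30941, 41, 30940, 20, [(2, 2, 2), (5, 1, 1)], 2,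
    0⟩),
    (3, ⟨14281, 31, 3570, 30, [(2, 1, 1), (3, 1, 1), (5, 1, 1)], 1, 1⟩, ⟨937, 37, 234, 18, [(2, 1, 1), (3, 2,
    2)], 1, 2⟩),
    (5, ⟨14281, 41, 340, 20, [(2, 2, 2), (5, 1, 1)], 2, 0⟩, ⟨20333, 53, 20332, 52, [(2, 2, 2), (13, 1, 1)], 2,
    0⟩),
    (7, ⟨14281, 43, 3570, 6, [(2, 1, 1), (3, 1, 1)], 1, 1⟩, ⟨128011456717, 43, 64005728358, 6, [(2, 1, 1), (3,
    1, 1)], 1, 1⟩),
    (11, ⟨30941, 53, 15470, 26, [(2, 1, 1), (13, 1, 1)], 1, 0⟩, ⟨20333, 53, 10166, 26, [(2, 1, 1), (13, 1, 1)],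
    1, 0⟩),
    (17, ⟨937, 37, 468, 36, [(2, 2, 2), (3, 2, 2)], 2, 2⟩, ⟨14281, 71, 1190, 10, [(2, 1, 1), (5, 1, 1)], 1, 0⟩),
    (19, ⟨937, 37, 468, 36, [(2, 2, 2), (3, 2, 2)], 2, 2⟩, ⟨128011456717, 127, 32002864179, 3, [(3, 1, 1)], 0,
    1⟩),
    (29, ⟨128011456717, 37, 128011456716, 12, [(2, 2, 2), (3, 1, 1)], 2, 1⟩, ⟨20333, 53, 10166, 26, [(2, 1, 1),
    (13, 1, 1)], 1, 0⟩),
    (271, ⟨14281, 73, 408, 24, [(2, 3, 3), (3, 1, 1)], 3, 1⟩, ⟨5229043, 79, 5229042, 78, [(2, 1, 1), (3, 1, 1),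
    (13, 1, 1)], 1, 1⟩)]
  ch := [
    (13217, 3, [(2, 5), (7, 1), (59, 1)]),
    (13417, 5, [(2, 3), (3, 1), (13, 1), (43, 1)]),
    (14197, 11, [(2, 2), (3, 1), (7, 1), (13, 2)]),
    (14281, 19, [(2, 3), (3, 1), (5, 1), (7, 1), (17, 1)]),
    (20333, 3, [(2, 2), (13, 1), (17, 1), (23, 1)]),
    (22079, 7, [(2, 1), (7, 1), (19, 1), (83, 1)]),
    (28393, 15, [(2, 3), (3, 1), (7, 1), (13, 2)]),
    (30941, 2, [(2, 2), (5, 1), (7, 1), (13, 1), (17, 1)]),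
    (79301, 2, [(2, 2), (5, 2), (13, 1), (61, 1)]),
    (1307261, 2, [(2, 2), (5, 1), (163, 1), (401, 1)]),
    (5229043, 26, [(2, 1), (3, 1), (7, 1), (13, 1), (61, 1), (157, 1)]),
    (64005728359, 3, [(2, 1), (3, 1), (11, 1), (13, 1), (2411, 1), (30941, 1)]),
    (128011456717, 2, [(2, 2), (3, 1), (11, 1), (13, 1), (2411, 1), (30941, 1)])]

set_option maxRecDepth 100000 in
theorem U14_13_ok : ldU U14_13 = true := by decide +kernel

end Cfsg.Agent.H510.U
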