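import Cfsg.Agent.H510.UCert

/-!
# Certificate for `PSU(8, 3)` (helper510; generated)
-/

set_option autoImplicit false

namespace Cfsg.Agent.H510.U

open Cfsg.Agent.H510.UCert

def U8_3 : UD where
  n := 8
  q := 3
  p := 3
  a := 1
  fac := [
    (2, 23), (5, 2), (7, 2), (13, 1), (41, 1), (61, 1), (547, 1)]
  tops := [
    (5, 61), (6, 13), (7, 547), (8, 41)]
  A := [
    (61, 31), (547, 137)]
  B := [
    (2, ⟨61, 1321, 60, 60, [(2, 2, 2), (3, 1, 1), (5, 1, 1)], 2, 1⟩, ⟨547, 5419, 546, 42, [(2, 1, 1), (3, 1, 1),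
    (7, 1, 1)], 1, 1⟩),
    (5, ⟨547, 43, 546, 42, [(2, 1, 1), (3, 1, 1), (7, 1, 1)], 1, 1⟩, ⟨61, 7621, 30, 30, [(2, 1, 1), (3, 1, 1),
    (5, 1, 1)], 1, 1⟩),
    (7, ⟨547, 43, 546, 6, [(2, 1, 1), (3, 1, 1)], 1, 1⟩, ⟨61, 181, 60, 12, [(2, 2, 2), (3, 1, 1)], 2, 1⟩),
    (13, ⟨547, 43, 21, 21, [(3, 1, 1), (7, 1, 1)], 0, 1⟩, ⟨41, 14281, 40, 8, [(2, 3, 3)], 3, 0⟩),
    (41, ⟨61, 11, 10, 10, [(2, 1, 1), (5, 1, 1)], 1, 0⟩, ⟨13, 109, 12, 12, [(2, 2, 2), (3, 1, 1)], 2, 1⟩)]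
  ch := [
    (5419, 3, [(2, 1), (3, 2), (7, 1), (43, 1)]),
    (7621, 2, [(2, 2), (3, 1), (5, 1), (127, 1)]),
    (14281, 19, [(2, 3), (3, 1), (5, 1), (7, 1), (17, 1)])]

set_option maxRecDepth 100000 in
theorem U8_3_ok : ldU U8_3 = true := by decide +kernel

end Cfsg.Agent.H510.U
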