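import Cfsg.Agent.H510.UCert

/-!
# Certificate for `PSU(8, 7)` (helper510; generated)
-/

set_option autoImplicit false

namespace Cfsg.Agent.H510.U

open Cfsg.Agent.H510.UCert

def U8_7 : UD where
  n := 8
  q := 7
  p := 7
  a := 1
  fac := [
    (2, 31), (3, 5), (5, 4), (11, 1), (19, 1), (43, 2), (113, 1), (191, 1), (911, 1), (1201, 1)]
  tops := [
    (5, 191), (6, 19), (7, 911), (8, 1201)]
  A := [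
    (911, 13), (1201, 601)]
  B := [
    (2, ⟨1201, 13, 300, 12, [(2, 2, 2), (3, 1, 1)], 2, 1⟩, ⟨191, 31, 95, 5, [(5, 1, 1)], 0, 0⟩),
    (3, ⟨19, 37, 18, 18, [(2, 1, 1), (3, 2, 2)], 1, 2⟩, ⟨1201, 73, 300, 12, [(2, 2, 2), (3, 1, 1)], 2, 1⟩),
    (5, ⟨911, 71, 455, 5, [(5, 1, 1)], 0, 0⟩, ⟨19, 829, 9, 9, [(3, 2, 2)], 0, 2⟩),
    (11, ⟨911, 53, 26, 26, [(2, 1, 1), (13, 1, 1)], 1, 0⟩, ⟨1201, 97, 1200, 48, [(2, 4, 4), (3, 1, 1)], 4, 1⟩),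
    (19, ⟨1201, 17, 200, 8, [(2, 3, 3)], 3, 0⟩, ⟨911, 151, 5, 5, [(5, 1, 1)], 0, 0⟩),
    (43, ⟨911, 71, 455, 35, [(5, 1, 1), (7, 1, 1)], 0, 0⟩, ⟨1201, 73, 600, 24, [(2, 3, 3), (3, 1, 1)], 3, 1⟩),
    (113, ⟨191, 41, 190, 10, [(2, 1, 1), (5, 1, 1)], 1, 0⟩, ⟨911, 131, 91, 13, [(13, 1, 1)], 0, 0⟩),
    (191, ⟨1201, 97, 1200, 48, [(2, 4, 4), (3, 1, 1)], 4, 1⟩, ⟨911, 281, 910, 10, [(2, 1, 1), (5, 1, 1)], 1, 0⟩)]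
  ch := []

set_option maxRecDepth 100000 in
theorem U8_7_ok : ldU U8_7 = true := by decide +kernel

end Cfsg.Agent.H510.U
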